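import Cfsg.Agent.H723.Spor.Tool
import Cfsg.Agent.H713.Spor.M
import Cfsg.Agent.H713.Spor.B
import Cfsg.Agent.H713.Spor.FiTF
import Cfsg.Agent.H713.Spor.Fi23
import Cfsg.Agent.H713.Spor.Fi22

/-!
# Rows of S4983: `M`, `B`, `Fi24'`, `Fi23`, `Fi22` (helper723)
-/

set_option autoImplicit false

namespace Cfsg.Agent.H723.Spor.Big

open Cfsg Cfsg.Agent.H713 Cfsg.Agent.H665.NoPQ Tool

universe u

theorem m {S : Type u} [Group S] [Finite S] (h : Spor.IsoM S) : ¬ Red.OneZero S := by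
  obtain ⟨y, hy, hy'⟩ := H713.Spor.M.exists_29 h
  exact of_order (by norm_num) (H713.Spor.M.hasDZ_29 h) hy hy'

theorem b {S : Type u} [Group S] [Finite S] (h : Spor.IsoB S) : ¬ Red.OneZero S := by
  obtain ⟨e⟩ := h
  exact of_model e 1 (by norm_num) (by norm_num) H713.Spor.B.hasDZ_31 H713.Spor.B.card_b
    (by norm_num) (by norm_num) (by norm_num) (by norm_num)

theorem fi24 {S : Type u} [Group S] [Finite S] (h : Spor.IsoFi24' S) : ¬ Red.OneZero S := by
  obtain ⟨e⟩ := h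
  exact of_model e 1 (by norm_num) (by norm_num) H713.Spor.FiTF.hasDZ_23 Cfsg.Agent.R08.FiTwentyFour.card_commutator
    (by norm_num) (by norm_num) (by norm_num) (by norm_num)

theorem fi23 {S : Type u} [Group S] [Finite S] (h : Spor.IsoFi23 S) : ¬ Red.OneZero S := by
  obtain ⟨e⟩ := h
  exact of_model e 1 (by norm_num) (by norm_num) H713.Spor.Fi23.hasDZ_23 Cfsg.Agent.Fischer.Fi23Simple.card_Fi23
    (by norm_num) (by norm_num) (by norm_num) (by norm_num)

theorem fi22 {S : Type u} [Group S] [Finite S] (h : Spor.IsoFi22 S) : ¬ Red.OneZero S := by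
  obtain ⟨e⟩ := h
  obtain ⟨x, hx⟩ := H713.Spor.Fi22.exists_22 e
  exact of_order (p := 11) (by norm_num) (H713.Spor.Fi22.hasDZ_11 e) (x := x) (by rw [hx]; norm_num)
    (by rw [hx]; norm_num)

end Cfsg.Agent.H723.Spor.Big
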